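import Cfsg.Agent.BlocksChar.ClassProd
import Cfsg.Agent.Char.PermChar
import Mathlib.Algebra.Order.Chebyshev
import Mathlib.Analysis.Real.Sqrt

/-!
# Counting products of two conjugates

Bounds from the class algebra, and two consequences of counting on the cosets of a subgroup.
-/

set_option autoImplicit false
set_option linter.unusedSectionVars false
set_option linter.style.haveILetI false

open scoped ComplexConjugate

namespace Cfsg.Agent.ReeCover

variable {G : Type*} [Group G] [Finite G]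

/-- `g` is a product of two conjugates of `x`. -/
def IsTwo (x g : G) : Prop := ∃ u v : G, g = (u * x * u⁻¹) * (v * x * v⁻¹)

theorem IsTwo.conj {x g : G} (h : IsTwo x g) (k : G) : IsTwo x (k * g * k⁻¹) := by
  obtain ⟨u, v, rfl⟩ := h
  exact ⟨k * u, k * v, by group⟩

theorem IsTwo.of_conj {x g : G} (k : G) (h : IsTwo x (k * g * k⁻¹)) : IsTwo x g := by
  have := h.conj k⁻¹
  simpa [mul_assoc] using this

theorem IsTwo.conj_left {x g : G} (h : IsTwo x g) (k : G) : IsTwo (k * x * k⁻¹) g := by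
  obtain ⟨u, v, rfl⟩ := h
  exact ⟨u * k⁻¹, v * k⁻¹, by group⟩

/-- The pairs of conjugators giving `g`. -/
noncomputable def pairCount (x g : G) : ℕ :=
  Nat.card {p : G × G // (p.1 * x * p.1⁻¹) * (p.2 * x * p.2⁻¹) = g}

theorem isTwo_of_pairCount {x g : G} (h : 0 < pairCount x g) : IsTwo x g := by
  obtain ⟨⟨⟨u, v⟩, e⟩⟩ := (Nat.card_pos_iff.1 h).1
  exact ⟨u, v, e.symm⟩

theorem pairCount_eq_zero {x g : G} (h : ¬ IsTwo x g) : pairCount x g = 0 :=
  Nat.eq_zero_of_not_pos fun hp => h (isTwo_of_pairCount hp)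

theorem pairCount_conj (x g k : G) : pairCount x (k * g * k⁻¹) = pairCount x g := by
  refine Nat.card_congr ((Equiv.prodCongr (Equiv.mulLeft k⁻¹) (Equiv.mulLeft k⁻¹)).subtypeEquiv ?_)
  rintro ⟨u, v⟩
  show _ ↔ k⁻¹ * u * x * (k⁻¹ * u)⁻¹ * (k⁻¹ * v * x * (k⁻¹ * v)⁻¹) = g
  constructor
  · intro e
    calc _ = k⁻¹ * ((u * x * u⁻¹) * (v * x * v⁻¹)) * k := by group
      _ = g := by rw [e]; group
  · intro e
    rw [← e]; group

theorem card_fiber {k₀ y : G} {x : G} (e : k₀ * x * k₀⁻¹ = y) :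
    Nat.card {v : G // v * x * v⁻¹ = y} = Nat.card (Subgroup.centralizer ({x} : Set G)) := by
  refine (Nat.card_congr ((Equiv.mulLeft k₀).subtypeEquiv fun v => ?_)).symm
  rw [Equiv.coe_mulLeft, Subgroup.mem_centralizer_singleton_iff, ← e]
  constructor
  · intro h
    calc _ = k₀ * (v * x) * v⁻¹ * k₀⁻¹ := by group
      _ = _ := by rw [h]; group
  · intro h
    have h' : v * x * v⁻¹ = x := by
      calc _ = k₀⁻¹ * (k₀ * v * x * (k₀ * v)⁻¹) * k₀ := by group
        _ = x := by rw [h]; group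
    exact mul_inv_eq_iff_eq_mul.1 h'

theorem pairCount_one {x : G} (hx : IsConj x x⁻¹) :
    pairCount x 1 = Nat.card G * Nat.card (Subgroup.centralizer ({x} : Set G)) := by
  obtain ⟨k, hk⟩ := isConj_iff.1 hx
  haveI := Fintype.ofFinite G
  let e : {p : G × G // (p.1 * x * p.1⁻¹) * (p.2 * x * p.2⁻¹) = 1} ≃
      Σ u : G, {v : G // v * x * v⁻¹ = u * x⁻¹ * u⁻¹} :=
    { toFun := fun p => ⟨p.1.1, p.1.2, by
        rw [eq_inv_of_mul_eq_one_right p.2]; group⟩
      invFun := fun s => ⟨(s.1, s.2.1), by rw [s.2.2]; group⟩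
      left_inv := fun _ => rfl
      right_inv := fun _ => rfl }
  rw [pairCount, Nat.card_congr e, Nat.card_sigma,
    Finset.sum_congr rfl fun u _ => card_fiber (k₀ := u * k) (x := x) (y := u * x⁻¹ * u⁻¹)
      (by rw [← hk]; group),
    Finset.sum_const, Finset.card_univ, Nat.card_eq_fintype_card (α := G), smul_eq_mul]

/-- The class algebra formula. -/
theorem pairCount_eq (x g : G) :
    (pairCount x g : ℂ) = (Nat.card G : ℂ) *
      ∑ χ : IrrCharacter G, (χ : G → ℂ) x * (χ : G → ℂ) x * conj ((χ : G → ℂ) g) / (χ : G → ℂ) 1 := by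
  classical
  letI := Fintype.ofFinite G
  have hG : (Nat.card G : ℂ) ≠ 0 := Nat.cast_ne_zero.2 Nat.card_pos.ne'
  have hrow : ∀ h : G, ∑ χ : IrrCharacter G, (χ : G → ℂ) h * conj ((χ : G → ℂ) g) =
      (Nat.card {k : G // k * g * k⁻¹ = h} : ℂ) := by
    intro h
    rw [Char.sum_irr_mul_conj]
    by_cases hc : IsConj h g
    · rw [if_pos hc]
      obtain ⟨k, hk⟩ := isConj_iff.1 hc.symm
      rw [((card_fiber (k₀ := (1 : G)) (x := h) (y := h) (by group)).symm.trans
        (Nat.card_congr ((Equiv.mulRight k).subtypeEquiv fun j => ?_) : _ = Nat.card {j : G // j * g * j⁻¹ = h}))]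
      have e : k * g * k⁻¹ = h := hk
      show _ ↔ j * k * g * (j * k)⁻¹ = h
      rw [show j * k * g * (j * k)⁻¹ = j * (k * g * k⁻¹) * j⁻¹ by group, e]
    · rw [if_neg hc]
      have : IsEmpty {k : G // k * g * k⁻¹ = h} := ⟨fun k => hc (isConj_iff.2 ⟨k.1, k.2⟩).symm⟩
      rw [Nat.card_of_isEmpty, Nat.cast_zero]
  have hL : ∑ u : G, ∑ v : G, ∑ χ : IrrCharacter G,
      (χ : G → ℂ) ((u * x * u⁻¹) * (v * x * v⁻¹)) * conj ((χ : G → ℂ) g) =
      (Nat.card G : ℂ) * (pairCount x g : ℂ) := by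
    simp only [hrow]
    rw [← Nat.card_congr (Equiv.refl G)]
    have e : Nat.card (Σ u : G, Σ v : G, {k : G // k * g * k⁻¹ = (u * x * u⁻¹) * (v * x * v⁻¹)}) =
        Nat.card G * pairCount x g := by
      let e' : (Σ u : G, Σ v : G, {k : G // k * g * k⁻¹ = (u * x * u⁻¹) * (v * x * v⁻¹)}) ≃
          Σ k : G, {p : G × G // (p.1 * x * p.1⁻¹) * (p.2 * x * p.2⁻¹) = k * g * k⁻¹} :=
        { toFun := fun s => ⟨s.2.2.1, (s.1, s.2.1), s.2.2.2.symm⟩
          invFun := fun s => ⟨s.2.1.1, s.2.1.2, s.1, s.2.2.symm⟩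
          left_inv := fun _ => rfl
          right_inv := fun _ => rfl }
      rw [Nat.card_congr e', Nat.card_sigma]
      change ∑ k : G, pairCount x (k * g * k⁻¹) = _
      rw [Finset.sum_congr rfl fun k _ => pairCount_conj x g k,
        Finset.sum_const, Finset.card_univ, Nat.card_eq_fintype_card (α := G), smul_eq_mul]
    have e2 := congrArg (Nat.cast : ℕ → ℂ) e
    simp only [Nat.card_sigma, Nat.cast_sum, Nat.cast_mul] at e2
    exact e2
  have hR : ∑ u : G, ∑ v : G, ∑ χ : IrrCharacter G,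
      (χ : G → ℂ) ((u * x * u⁻¹) * (v * x * v⁻¹)) * conj ((χ : G → ℂ) g) =
      (Nat.card G : ℂ) * ((Nat.card G : ℂ) *
        ∑ χ : IrrCharacter G, (χ : G → ℂ) x * (χ : G → ℂ) x * conj ((χ : G → ℂ) g) / (χ : G → ℂ) 1) := by
    have hu : ∀ u : G, ∑ v : G, ∑ χ : IrrCharacter G,
        (χ : G → ℂ) ((u * x * u⁻¹) * (v * x * v⁻¹)) * conj ((χ : G → ℂ) g) =
        (Nat.card G : ℂ) * ∑ χ : IrrCharacter G,
          (χ : G → ℂ) x * (χ : G → ℂ) x * conj ((χ : G → ℂ) g) / (χ : G → ℂ) 1 := by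
      intro u
      rw [Finset.sum_comm, Finset.mul_sum]
      refine Finset.sum_congr rfl fun χ _ => ?_
      rw [← Finset.sum_mul, ← Equiv.sum_comp (Equiv.mulLeft u)]
      have : ∀ w : G, (χ : G → ℂ) ((u * x * u⁻¹) * ((Equiv.mulLeft u) w * x * ((Equiv.mulLeft u) w)⁻¹)) =
          (χ : G → ℂ) (x * (w * x * w⁻¹)) := by
        intro w
        refine Char.isClassFunction_eq_of_isConj (Char.irr_isClassFunction χ.2) ?_
        refine isConj_iff.2 ⟨u⁻¹, ?_⟩
        rw [Equiv.coe_mulLeft]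
        group
      rw [Finset.sum_congr rfl fun w _ => this w, BlocksChar.sum_conj_mul χ.2]
      ring
    rw [Finset.sum_congr rfl fun u _ => hu u, Finset.sum_const, Finset.card_univ, nsmul_eq_mul,
      Nat.card_eq_fintype_card (α := G)]
  exact mul_left_cancel₀ hG (hL.symm.trans hR)

theorem sum_norm_sq (x : G) :
    ∑ χ : IrrCharacter G, ‖(χ : G → ℂ) x‖ ^ 2 = (Nat.card (Subgroup.centralizer ({x} : Set G)) : ℝ) := by
  classical
  letI := Fintype.ofFinite G
  have h := Char.sum_irr_mul_conj x x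
  rw [if_pos (IsConj.refl x)] at h
  have h2 : ∀ z : ℂ, z * conj z = ((‖z‖ ^ 2 : ℝ) : ℂ) := fun z => by
    rw [Complex.mul_conj, Complex.normSq_eq_norm_sq]
  simp only [h2] at h
  rw [← Complex.ofReal_sum, ← Complex.ofReal_natCast] at h
  exact Complex.ofReal_injective h

/-- All the non-trivial characters have degree at least `d`. -/
def MinDeg (G : Type*) [Group G] (d : ℕ) : Prop :=
  ∀ χ : IrrCharacter G, (χ : G → ℂ) ≠ (fun _ => 1) → ∃ k : ℕ, d ≤ k ∧ (χ : G → ℂ) 1 = k

variable {d : ℕ}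

theorem norm_pairCount_sub (hd : MinDeg G d) (hd0 : 0 < d) (x g : G) :
    |(pairCount x g : ℝ) - Nat.card G| ≤ Nat.card G *
      (((Nat.card (Subgroup.centralizer ({x} : Set G)) : ℝ) - 1) *
        Real.sqrt (Nat.card (Subgroup.centralizer ({g} : Set G))) / d) := by
  classical
  letI := Fintype.ofFinite G
  set one : IrrCharacter G := ⟨fun _ => 1, BlocksChar.isIrr_one⟩ with hone
  set M := Real.sqrt (Nat.card (Subgroup.centralizer ({g} : Set G)))
  set c := (Nat.card (Subgroup.centralizer ({x} : Set G)) : ℝ)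
  have hM : ∀ χ : IrrCharacter G, ‖(χ : G → ℂ) g‖ ≤ M := fun χ => by
    refine Real.le_sqrt_of_sq_le ?_
    rw [← sum_norm_sq g]
    exact Finset.single_le_sum (f := fun χ : IrrCharacter G => ‖(χ : G → ℂ) g‖ ^ 2)
      (fun _ _ => sq_nonneg _) (Finset.mem_univ χ)
  have hone' : (one : G → ℂ) = fun _ => 1 := rfl
  have hc : ∑ χ ∈ Finset.univ.erase one, ‖(χ : G → ℂ) x‖ ^ 2 = c - 1 := by
    rw [eq_sub_iff_add_eq, show c = ∑ χ : IrrCharacter G, ‖(χ : G → ℂ) x‖ ^ 2 from (sum_norm_sq x).symm]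
    rw [← Finset.sum_erase_add _ _ (Finset.mem_univ one), hone']
    norm_num
  have h := pairCount_eq x g
  rw [← Finset.add_sum_erase _ _ (Finset.mem_univ one), hone'] at h
  simp only [map_one, mul_one, div_one, mul_add] at h
  set S := ∑ χ ∈ Finset.univ.erase one,
    (χ : G → ℂ) x * (χ : G → ℂ) x * conj ((χ : G → ℂ) g) / (χ : G → ℂ) 1
  have hS : ‖S‖ ≤ (c - 1) * M / d := by
    refine (norm_sum_le _ _).trans ?_
    rw [← hc, Finset.sum_mul, Finset.sum_div]
    refine Finset.sum_le_sum fun χ hχ => ?_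
    obtain ⟨k, hk, hk1⟩ := hd χ fun e => (Finset.mem_erase.1 hχ).1 (Subtype.ext e)
    rw [hk1, norm_div, norm_mul, norm_mul, Complex.norm_conj, Complex.norm_natCast, ← sq]
    have hd' : (0 : ℝ) < d := by exact_mod_cast hd0
    gcongr
    exact hM χ
  have h' : ((pairCount x g : ℝ) : ℂ) - ((Nat.card G : ℝ) : ℂ) = (Nat.card G : ℂ) * S := by
    push_cast
    rw [h]; ring
  rw [← Complex.ofReal_sub] at h'
  have := congrArg norm h'
  rw [Complex.norm_real, Real.norm_eq_abs, norm_mul, Complex.norm_natCast] at this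
  rw [this]
  exact mul_le_mul_of_nonneg_left hS (Nat.cast_nonneg _)

/-- A small centraliser of `g` makes it a product of two conjugates. -/
theorem isTwo_of_small (hd : MinDeg G d) (hd0 : 0 < d) {x g : G} {b e : ℕ}
    (hb : Nat.card (Subgroup.centralizer ({x} : Set G)) ≤ b + 1)
    (he : Nat.card (Subgroup.centralizer ({g} : Set G)) ≤ e) (h : b ^ 2 * e < d ^ 2) : IsTwo x g := by
  refine isTwo_of_pairCount (Nat.pos_of_ne_zero fun h0 => ?_)
  have hn := norm_pairCount_sub hd hd0 x g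
  rw [h0, Nat.cast_zero, zero_sub, abs_neg, Nat.abs_cast] at hn
  set c := (Nat.card (Subgroup.centralizer ({x} : Set G)) : ℝ)
  set M := Real.sqrt (Nat.card (Subgroup.centralizer ({g} : Set G)))
  have hG : (0 : ℝ) < Nat.card G := by exact_mod_cast Nat.card_pos
  have h1 : 1 ≤ (c - 1) * M / d := by
    by_contra hlt
    have := mul_lt_mul_of_pos_left (not_le.1 hlt) hG
    linarith
  have hd' : (0 : ℝ) < d := by exact_mod_cast hd0
  rw [le_div_iff₀ hd', one_mul] at h1
  have hc1 : 1 ≤ c := by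
    show (1 : ℝ) ≤ ((Nat.card (Subgroup.centralizer ({x} : Set G)) : ℕ) : ℝ)
    exact_mod_cast (Nat.card_pos : 0 < Nat.card (Subgroup.centralizer ({x} : Set G)))
  have h2 : (d : ℝ) ^ 2 ≤ ((c - 1) * M) ^ 2 := pow_le_pow_left₀ hd'.le h1 2
  rw [mul_pow, Real.sq_sqrt (Nat.cast_nonneg _)] at h2
  have h3 : (c - 1) ^ 2 ≤ (b : ℝ) ^ 2 := by
    refine pow_le_pow_left₀ (by linarith) ?_ 2
    have : c ≤ ((b + 1 : ℕ) : ℝ) := by
      show ((Nat.card (Subgroup.centralizer ({x} : Set G)) : ℕ) : ℝ) ≤ _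
      exact_mod_cast hb
    push_cast at this; linarith
  have h4 : (d : ℝ) ^ 2 ≤ (b : ℝ) ^ 2 * e :=
    h2.trans (mul_le_mul h3 (by exact_mod_cast he) (Nat.cast_nonneg _) (sq_nonneg _))
  have h5 : d ^ 2 ≤ b ^ 2 * e := by exact_mod_cast h4
  omega

/-- Counting on the cosets of a subgroup. -/
theorem card_mul_le_sum {x : G} (hx : IsConj x x⁻¹) (H : Subgroup G) [Fintype H] :
    Nat.card G * Nat.card H ≤ ∑ h : H, pairCount x (h : G) := by
  classical
  letI := Fintype.ofFinite G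
  letI := Fintype.ofFinite (G ⧸ H)
  obtain ⟨k, hk⟩ := isConj_iff.1 hx
  let φ : G → G ⧸ H := fun v => QuotientGroup.mk (v * x * v⁻¹)
  have e1 : ∑ h : H, pairCount x (h : G) = Nat.card {p : G × G // φ p.1 = φ p.2} := by
    simp only [pairCount]
    rw [← Nat.card_sigma]
    let e : (Σ h : H, {p : G × G // (p.1 * x * p.1⁻¹) * (p.2 * x * p.2⁻¹) = (h : G)}) ≃
        {p : G × G // (p.1 * x * p.1⁻¹) * (p.2 * x * p.2⁻¹) ∈ H} :=
      { toFun := fun s => ⟨s.2.1, by rw [s.2.2]; exact s.1.2⟩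
        invFun := fun p => ⟨⟨_, p.2⟩, p.1, rfl⟩
        left_inv := fun ⟨⟨h, hh⟩, ⟨p, hp⟩⟩ => by
          have hp' : (p.1 * x * p.1⁻¹) * (p.2 * x * p.2⁻¹) = h := hp
          subst hp'; rfl
        right_inv := fun _ => rfl }
    rw [Nat.card_congr e]
    refine Nat.card_congr ((Equiv.prodCongr (Equiv.mulRight k) (Equiv.refl G)).subtypeEquiv fun p => ?_)
    obtain ⟨u, v⟩ := p
    show _ ↔ φ (u * k) = φ v
    simp only [φ, QuotientGroup.eq]
    have : (u * k * x * (u * k)⁻¹)⁻¹ = u * x * u⁻¹ := by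
      calc _ = u * (k * x * k⁻¹)⁻¹ * u⁻¹ := by group
        _ = _ := by rw [hk, inv_inv]
    rw [this]
  have e2 : Nat.card {p : G × G // φ p.1 = φ p.2} =
      ∑ Q : G ⧸ H, (Finset.univ.filter fun v => φ v = Q).card ^ 2 := by
    let e : {p : G × G // φ p.1 = φ p.2} ≃ Σ Q : G ⧸ H, {v : G // φ v = Q} × {v : G // φ v = Q} :=
      { toFun := fun p => ⟨φ p.1.2, ⟨p.1.1, p.2⟩, ⟨p.1.2, rfl⟩⟩
        invFun := fun s => ⟨(s.2.1.1, s.2.2.1), s.2.1.2.trans s.2.2.2.symm⟩
        left_inv := fun _ => rfl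
        right_inv := fun ⟨Q, ⟨u, hu⟩, ⟨v, hv⟩⟩ => by subst hv; rfl }
    rw [Nat.card_congr e, Nat.card_sigma]
    refine Finset.sum_congr rfl fun Q _ => ?_
    rw [Nat.card_prod, Nat.card_eq_fintype_card, Fintype.card_subtype, sq]
  have e3 : ∑ Q : G ⧸ H, (Finset.univ.filter fun v => φ v = Q).card = Nat.card G := by
    rw [Nat.card_eq_fintype_card, ← Finset.card_univ (α := G),
      Finset.card_eq_sum_card_fiberwise (fun v _ => Finset.mem_univ (φ v))]
  have h := sq_sum_le_card_mul_sum_sq (s := (Finset.univ : Finset (G ⧸ H)))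
    (f := fun Q => (Finset.univ.filter fun v => φ v = Q).card)
  rw [e3, ← e2, ← e1, Finset.card_univ, ← Nat.card_eq_fintype_card (α := G ⧸ H), Nat.cast_id] at h
  refine Nat.le_of_mul_le_mul_left (le_trans (le_of_eq ?_) h) (Nat.card_pos (α := G ⧸ H))
  rw [Subgroup.card_eq_card_quotient_mul_card_subgroup H]
  ring

/-- A subgroup larger than the centraliser meets the products. -/
theorem exists_isTwo_of_card_lt {x : G} (hx : IsConj x x⁻¹) (H : Subgroup G)
    (h : Nat.card (Subgroup.centralizer ({x} : Set G)) < Nat.card H) :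
    ∃ g ∈ H, g ≠ 1 ∧ IsTwo x g := by
  classical
  by_contra hc
  push Not at hc
  letI := Fintype.ofFinite H
  have h1 := card_mul_le_sum hx H
  rw [Finset.sum_eq_single (1 : H), Subgroup.coe_one, pairCount_one hx] at h1
  · exact absurd (Nat.le_of_mul_le_mul_left h1 Nat.card_pos) (by omega)
  · exact fun g _ hg => pairCount_eq_zero (hc g g.2 fun e => hg (Subtype.ext e))
  · exact fun h => absurd (Finset.mem_univ _) h

/-- A borderline case, decided by the doubly transitive action. -/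
theorem exists_isTwo_of_steinberg {X : Type*} [MulAction G X] [Finite X]
    [MulAction.IsPretransitive G X] (h2t : MulAction.IsMultiplyPretransitive G X 2) {x : G}
    (hx : IsConj x x⁻¹) (hfix : Nat.card (MulAction.fixedBy X x) = 0) (H : Subgroup G)
    (hH : ∀ g ∈ H, g ≠ 1 → Nat.card (MulAction.fixedBy X g) = 1 ∧ ¬ IsConj x g) (hx1 : x ≠ 1)
    (hX : Nat.card X = Nat.card H ^ 3 + 1) (hH1 : 1 < Nat.card H)
    (hc : Nat.card (Subgroup.centralizer ({x} : Set G)) = Nat.card H + 1) :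
    ∃ g ∈ H, g ≠ 1 ∧ IsTwo x g := by
  classical
  by_contra hno
  push Not at hno
  letI := Fintype.ofFinite G
  letI := Fintype.ofFinite H
  set n := Nat.card H
  have hn0 : 1 ≤ n := hH1.le
  have hX2 : 2 ≤ Nat.card X := by
    rw [hX]
    have : n ≤ n ^ 3 := Nat.le_self_pow (by norm_num) n
    omega
  let St : IrrCharacter G := ⟨_, (Char.isIrrCharacter_permChar_sub_one_iff X hX2).2 h2t⟩
  let one : IrrCharacter G := ⟨fun _ => 1, BlocksChar.isIrr_one⟩
  have hStx : (St : G → ℂ) x = -1 := by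
    show Char.permChar X x - 1 = -1
    rw [Char.permChar, hfix, Nat.cast_zero, zero_sub]
  have hne : St ≠ one := fun e => by
    have := congrArg (fun χ : IrrCharacter G => (χ : G → ℂ) x) e
    simp only [hStx] at this
    norm_num [one] at this
  -- sums over `H`
  have hZ : ∀ χ : IrrCharacter G, ∃ f : ℕ, ∑ h : H, conj ((χ : G → ℂ) (h : G)) = ((n * f : ℕ) : ℂ) := by
    intro χ
    obtain ⟨k, ρ, hρ⟩ := Char.isCharacter_of_irr χ.2
    let ρH : Representation ℂ H (Fin k → ℂ) := ρ.comp H.subtype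
    have : Invertible (Nat.card H : ℂ) := invertibleOfNonzero (Nat.cast_ne_zero.2 Nat.card_pos.ne')
    refine ⟨Module.finrank ℂ ρH.invariants, ?_⟩
    have e : ∑ h : H, (χ : G → ℂ) (h : G) = ((n * Module.finrank ℂ ρH.invariants : ℕ) : ℂ) := by
      rw [Nat.cast_mul, ← ρH.card_inv_mul_sum_char_eq_finrank, mul_inv_cancel_left₀
        (Nat.cast_ne_zero.2 Nat.card_pos.ne')]
      exact Finset.sum_congr rfl fun h _ => by rw [← hρ]; rfl
    rw [← map_sum, e, map_natCast]
  choose f hf using hZ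
  have hS1 : (St : G → ℂ) 1 = ((n ^ 3 : ℕ) : ℂ) := by
    show Char.permChar X 1 - 1 = _
    rw [Char.permChar]
    have e : Nat.card (MulAction.fixedBy X (1 : G)) = Nat.card X :=
      by rw [MulAction.fixedBy_one_eq_univ, Nat.card_coe_set_eq, Set.ncard_univ]
    rw [e, hX]; push_cast; ring
  have hSZ : ∑ h : H, conj ((St : G → ℂ) (h : G)) = ((n ^ 3 : ℕ) : ℂ) := by
    rw [Finset.sum_eq_single (1 : H)]
    · rw [Subgroup.coe_one, hS1, map_natCast]
    · intro h _ hh
      show conj (Char.permChar X (h : G) - 1) = 0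
      rw [Char.permChar, (hH h h.2 fun e => hh (Subtype.ext e)).1, Nat.cast_one, sub_self, map_zero]
    · exact fun h => absurd (Finset.mem_univ _) h
  have h1Z : ∑ h : H, conj ((one : G → ℂ) (h : G)) = (n : ℂ) := by
    simp [one, n]
  have hreal : ∀ χ : IrrCharacter G, ∃ r : ℝ, (χ : G → ℂ) x = r := fun χ => by
    refine ⟨((χ : G → ℂ) x).re, (Complex.conj_eq_iff_re.1 ?_).symm⟩
    rw [← Char.irr_inv χ.2]
    exact (Char.isClassFunction_eq_of_isConj (Char.irr_isClassFunction χ.2) hx).symm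
  choose r hr using hreal
  have hdeg : ∀ χ : IrrCharacter G, ∃ k : ℕ, 0 < k ∧ (χ : G → ℂ) 1 = k := fun χ => Char.irr_one_pos χ.2
  choose k hk0 hk using hdeg
  -- the count on the cosets
  have h1 : ∑ h : H, (pairCount x (h : G) : ℂ) = (Nat.card G : ℂ) * ((n : ℂ) + 1) := by
    rw [Finset.sum_eq_single (1 : H), Subgroup.coe_one, pairCount_one hx, hc]
    · push_cast; ring
    · exact fun g _ hg => by rw [pairCount_eq_zero (hno g g.2 fun e => hg (Subtype.ext e)), Nat.cast_zero]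
    · exact fun h => absurd (Finset.mem_univ _) h
  simp only [pairCount_eq, ← Finset.mul_sum] at h1
  have h2 := mul_left_cancel₀ (Nat.cast_ne_zero.2 (Nat.card_pos (α := G)).ne') h1
  rw [Finset.sum_comm] at h2
  set T : IrrCharacter G → ℝ := fun χ => r χ ^ 2 * (n * f χ : ℕ) / k χ
  have hT : ∀ χ : IrrCharacter G, ∑ h : H,
      (χ : G → ℂ) x * (χ : G → ℂ) x * conj ((χ : G → ℂ) (h : G)) / (χ : G → ℂ) 1 = (T χ : ℂ) := fun χ => by
    rw [← Finset.sum_div, ← Finset.mul_sum, hf, hr, hk]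
    simp only [T]
    push_cast; ring
  simp only [hT] at h2
  have h3 : ∑ χ : IrrCharacter G, T χ = (n : ℝ) + 1 := by exact_mod_cast h2
  have hT1 : T one = n := by
    have := hT one
    simp only [one, map_one, mul_one, div_one] at this
    rw [Finset.sum_const, Finset.card_univ, ← Nat.card_eq_fintype_card, nsmul_eq_mul, mul_one] at this
    exact Complex.ofReal_inj.1 (by rw [← this]; simp [n])
  have hTS : T St = 1 := by
    have := hT St
    rw [← Finset.sum_div, ← Finset.mul_sum, hSZ, hStx, hS1] at this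
    have hn : ((n ^ 3 : ℕ) : ℂ) ≠ 0 := Nat.cast_ne_zero.2 (pow_ne_zero _ (by omega))
    rw [neg_one_mul, neg_neg, one_mul, div_self hn] at this
    exact_mod_cast this.symm
  have hrest : ∀ χ, χ ≠ one → χ ≠ St → T χ = 0 := by
    intro χ hχ1 hχS
    have hle : ∑ ψ ∈ ({one, St, χ} : Finset (IrrCharacter G)), T ψ ≤ ∑ ψ, T ψ :=
      Finset.sum_le_univ_sum_of_nonneg fun ψ => by positivity
    rw [Finset.sum_insert (by simp [hne.symm, hχ1.symm]), Finset.sum_insert (by simp [hχS.symm]),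
      Finset.sum_singleton, hT1, hTS, h3] at hle
    exact le_antisymm (by linarith) (by positivity)
  -- orthogonality of the columns
  have h4 : ∑ χ : IrrCharacter G, (χ : G → ℂ) x * ∑ h : H, conj ((χ : G → ℂ) (h : G)) = 0 := by
    simp only [Finset.mul_sum]
    rw [Finset.sum_comm]
    refine Finset.sum_eq_zero fun h _ => ?_
    rw [Char.sum_irr_mul_conj, if_neg]
    by_cases h1' : (h : G) = 1
    · rw [h1']; exact fun hc => hx1 (isConj_one_left.1 hc)
    · exact (hH h h.2 h1').2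
  rw [Fintype.sum_eq_add one St hne.symm] at h4
  · rw [hSZ, hStx, h1Z] at h4
    simp only [one, one_mul, neg_one_mul, ← sub_eq_add_neg, sub_eq_zero] at h4
    have h5 : n = n ^ 3 := by exact_mod_cast h4
    have : n * 1 < n * n ^ 2 := Nat.mul_lt_mul_of_pos_left (Nat.one_lt_pow two_ne_zero hH1) (by omega)
    rw [show n * n ^ 2 = n ^ 3 by ring, ← h5] at this
    omega
  · rintro χ ⟨hχ1, hχS⟩
    have := hrest χ hχ1 hχS
    simp only [T, div_eq_zero_iff, mul_eq_zero, pow_eq_zero_iff two_ne_zero, Nat.cast_eq_zero] at this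
    rcases this with (h | h) | h
    · rw [hr, h, Complex.ofReal_zero, zero_mul]
    · rw [hf, show n * f χ = 0 by rcases h with h | h <;> simp [h], Nat.cast_zero, mul_zero]
    · exact absurd h (hk0 χ).ne'

end Cfsg.Agent.ReeCover
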