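import Cfsg.Agent.ReeLocal.Results

/-!
# Centralisers of semisimple elements
-/

set_option autoImplicit false
set_option linter.unusedSectionVars false
set_option linter.style.haveILetI false

namespace Cfsg.Agent.ReeCover

open Cfsg.Agent.ReeLocal (Sys IsTor mem_cent orderOf_conj orderOf_ne_one cent_conj)

variable {G : Type*} [Group G] [Finite G] {F : Type*} [Field F] [Fintype F] (S : ReeLocal.Sys G F)

local notation "q" => Fintype.card F

/-- `A` is one of the two classes of large tori. -/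
def BigTor (A : Subgroup G) : Prop :=
  IsTor A ∧ (Nat.card A ∣ q ^ 2 - q + 1) ∧ 1 < Nat.card A ∧ Nat.card A ≤ q + 3 ^ (S.m + 1) + 1 ∧
    Nat.card (Subgroup.normalizer (A : Set G)) = 6 * Nat.card A ∧
    (Nat.card A = q - 3 ^ (S.m + 1) + 1 ∨ Nat.card A = q + 3 ^ (S.m + 1) + 1)

include S in
/-- The two large tori. -/
theorem two_big : ∃ T₁ T₂ : Subgroup G, BigTor S T₁ ∧ BigTor S T₂ ∧ Nat.card T₁ * Nat.card T₂ = q ^ 2 - q + 1 ∧
    ∀ x : G, orderOf x ∣ q ^ 2 - q + 1 → orderOf x ∣ Nat.card T₁ ∨ orderOf x ∣ Nat.card T₂ := by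
  obtain ⟨T₁, T₂, hT₁, hT₂, hc₁, hc₂, hp, hN₁, hN₂, hs⟩ := S.two_classes
  have hqq : q ≤ q ^ 2 := Nat.le_self_pow two_ne_zero _
  have h1 : 1 < Nat.card T₁ := by
    by_contra h
    have h1 : Nat.card T₁ = 1 := le_antisymm (not_lt.1 h) Nat.card_pos
    rw [h1, one_mul, hc₂] at hp
    have h27 := S.q_ge
    have h9 : 3 ^ (S.m + 1) ≤ q := by
      rw [S.cardF]; exact Nat.pow_le_pow_right (by norm_num) (by omega)
    have : 4 * q ≤ q ^ 2 := by rw [pow_two]; exact Nat.mul_le_mul_right _ (by omega)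
    omega
  have hpos : 0 < 3 ^ (S.m + 1) := pow_pos (by norm_num) _
  refine ⟨T₁, T₂, ⟨hT₁, ⟨_, hp.symm⟩, h1, by rw [hc₁]; generalize 3 ^ (S.m + 1) = r at hpos ⊢; omega, hN₁, Or.inl hc₁⟩,
    ⟨hT₂, ⟨_, (by rw [mul_comm]; exact hp.symm)⟩, by rw [hc₂]; generalize 3 ^ (S.m + 1) = r at hpos ⊢; omega, hc₂.le, hN₂, Or.inr hc₂⟩, hp, hs⟩

variable {S}

theorem BigTor.cent {A : Subgroup G} (hA : BigTor S A) {a : G} (ha : a ∈ A) (ha1 : a ≠ 1) :
    Subgroup.centralizer ({a} : Set G) = A := by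
  obtain ⟨r, hr, hrA⟩ := Nat.exists_prime_and_dvd (orderOf_ne_one ha1)
  have hrQ : r ∣ q ^ 2 - q + 1 := (hrA.trans (A.orderOf_dvd_natCard ha)).trans hA.2.1
  set y := a ^ (orderOf a / r) with hy
  have hyo : orderOf y = r := orderOf_pow_orderOf_div (orderOf_pos a).ne' hrA
  have hy1 : y ≠ 1 := fun e => hr.one_lt.ne (by rw [← hyo, e, orderOf_one])
  have hyA : y ∈ A := pow_mem ha _
  rw [hA.1.cent a ha ha1 y hyA hy1]
  refine le_antisymm (fun g hg => ?_) (fun g hg => mem_cent.2 (hA.1.comm hg hyA))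
  refine hA.1.mem y hyA hy1 g (mem_cent.1 hg) ?_
  by_contra hev
  rw [Nat.not_odd_iff_even, even_iff_two_dvd] at hev
  have h2 := S.big_cent_primes hr hrQ hyo Nat.prime_two
    (hev.trans (Subgroup.orderOf_dvd_natCard _ hg))
  exact ((S.prime_facts Nat.prime_two).2.2 h2).1 rfl

theorem BigTor.conj_mem {A : Subgroup G} (hA : BigTor S A) {x : G} {p : ℕ} (hp : p.Prime)
    (hpx : p ∣ orderOf x) (hpA : p ∣ Nat.card A) : ∃ g, g * x * g⁻¹ ∈ A := by
  obtain ⟨g, a, ha, ha1, hax⟩ := hA.1.exists_conj_cent hp hpx hpA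
  refine ⟨g, hA.cent ha ha1 ▸ mem_cent.2 ?_⟩
  obtain ⟨k, rfl⟩ := Subgroup.mem_zpowers_iff.1 hax
  exact ((Commute.refl (g * x * g⁻¹)).zpow_right k).eq

theorem card_cent_conj (g x : G) : Nat.card (Subgroup.centralizer ({g * x * g⁻¹} : Set G)) =
    Nat.card (Subgroup.centralizer ({x} : Set G)) := by
  rw [cent_conj, Subgroup.card_map_of_injective (MulAut.conj g).injective]

theorem card_cent_le_pow (x : G) (k : ℕ) : Nat.card (Subgroup.centralizer ({x} : Set G)) ≤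
    Nat.card (Subgroup.centralizer ({x ^ k} : Set G)) :=
  Subgroup.card_le_of_le fun g hg => mem_cent.2
    (((show Commute g x from mem_cent.1 hg).pow_right k).eq)

variable (S)

/-- The three possibilities for an element with a prime divisor greater than three. -/
theorem cases_big_prime {x : G} {p : ℕ} (hp : p.Prime) (hp2 : p ≠ 2) (hp3 : p ≠ 3) (hpx : p ∣ orderOf x) :
    (p ∣ (q - 1) / 2 ∧ Nat.card (Subgroup.centralizer ({x} : Set G)) ≤ q - 1 ∧
        ∃ v : G, v * v = 1 ∧ v ≠ 1 ∧ x * v = v * x) ∨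
      (p ∣ (q + 1) / 4 ∧ Nat.card (Subgroup.centralizer ({x} : Set G)) = q + 1 ∧
        ∃ v : G, v * v = 1 ∧ v ≠ 1 ∧ x * v = v * x) ∨
      ∃ (A : Subgroup G) (g : G), BigTor S A ∧ g * x * g⁻¹ ∈ A ∧
        Nat.card (Subgroup.centralizer ({x} : Set G)) = Nat.card A := by
  have hnum := S.nums
  set y := x ^ (orderOf x / p) with hy
  have hyo : orderOf y = p := orderOf_pow_orderOf_div (orderOf_pos x).ne' hpx
  have hy1 : y ≠ 1 := fun e => hp.one_lt.ne (by rw [← hyo, e, orderOf_one])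
  have hle := card_cent_le_pow x (orderOf x / p)
  rcases S.prime_of_dvd_card hp (hpx.trans (orderOf_dvd_natCard x)) with h | h | h | h | h
  · exact absurd h hp3
  · exact absurd h hp2
  · refine Or.inl ⟨h, ?_⟩
    obtain ⟨A, hA, hAc, hmem, -, hAC⟩ := S.exists_half
    obtain ⟨g, hg⟩ := hA.exists_conj_of_dvd (x := y) (hAc.symm ▸ hyo ▸ h) (orderOf_ne_one hy1)
    have hg1 : g * y * g⁻¹ ≠ 1 := fun e => hy1 (conj_eq_one_iff.1 e)
    have hxH : g * x * g⁻¹ ∈ S.H := by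
      rw [← hAC _ hg hg1]
      exact mem_cent.2 (ReeLocal.conj_mem_cent (Commute.self_pow x _).eq)
    refine ⟨hle.trans ?_, g⁻¹ * S.t * g, ?_, ?_, ?_⟩
    · rw [← card_cent_conj g (x ^ _), hAC _ hg hg1, S.H_card]
    · calc g⁻¹ * S.t * g * (g⁻¹ * S.t * g) = g⁻¹ * (S.t * S.t) * g := by group
        _ = 1 := by rw [S.t_sq]; group
    · intro e
      exact S.t_ne (conj_eq_one_iff.1 (show g⁻¹ * S.t * g⁻¹⁻¹ = 1 by rwa [inv_inv]))
    · calc x * (g⁻¹ * S.t * g) = g⁻¹ * ((g * x * g⁻¹) * S.t) * g := by group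
        _ = g⁻¹ * (S.t * (g * x * g⁻¹)) * g := by rw [S.H_comm hxH S.t_mem]
        _ = _ := by group
  · refine Or.inr (Or.inl ⟨h, ?_⟩)
    obtain ⟨s, A, hA⟩ := S.exists_quarter_tor
    obtain ⟨g, hg⟩ := (S.quarter_tor hA).exists_conj_of_dvd (x := y) (hA.card.symm ▸ hyo ▸ h) (orderOf_ne_one hy1)
    have hg1 : g * y * g⁻¹ ≠ 1 := fun e => hy1 (conj_eq_one_iff.1 e)
    have hxC : (g * x * g⁻¹) * (g * y * g⁻¹) = (g * y * g⁻¹) * (g * x * g⁻¹) :=
      ReeLocal.conj_mem_cent (Commute.self_pow x _).eq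
    refine ⟨le_antisymm (hle.trans ?_) ?_, g⁻¹ * S.t * g, ?_, ?_, ?_⟩
    · rw [← card_cent_conj g (x ^ _), S.quarter_card_cent hA hg hg1]
    · rw [← card_cent_conj g x, ← S.quarter_card_cent hA hg hg1]
      exact Subgroup.card_le_of_le fun c hc =>
        mem_cent.2 (S.quarter_cent_comm hA hg hg1 (mem_cent.1 hc) hxC)
    · calc g⁻¹ * S.t * g * (g⁻¹ * S.t * g) = g⁻¹ * (S.t * S.t) * g := by group
        _ = 1 := by rw [S.t_sq]; group
    · intro e
      exact S.t_ne (conj_eq_one_iff.1 (show g⁻¹ * S.t * g⁻¹⁻¹ = 1 by rwa [inv_inv]))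
    · have hc : (g * x * g⁻¹) * S.t = S.t * (g * x * g⁻¹) :=
        mem_cent.1 (S.quarter_cent hA hg hg1 (mem_cent.2 hxC)).1
      calc x * (g⁻¹ * S.t * g) = g⁻¹ * ((g * x * g⁻¹) * S.t) * g := by group
        _ = g⁻¹ * (S.t * (g * x * g⁻¹)) * g := by rw [hc]
        _ = _ := by group
  · refine Or.inr (Or.inr ?_)
    obtain ⟨T₁, T₂, h₁, h₂, -, hs⟩ := two_big S
    have key : ∀ T, BigTor S T → p ∣ Nat.card T → ∃ (A : Subgroup G) (g : G), BigTor S A ∧ g * x * g⁻¹ ∈ A ∧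
        Nat.card (Subgroup.centralizer ({x} : Set G)) = Nat.card A := by
      intro T hT hpT
      obtain ⟨g, hg⟩ := hT.conj_mem hp hpx hpT
      have hg1 : g * x * g⁻¹ ≠ 1 := fun e => by
        rw [conj_eq_one_iff.1 e, orderOf_one] at hpx
        exact hp.one_lt.ne' (Nat.dvd_one.1 hpx)
      exact ⟨T, g, hT, hg, by rw [← card_cent_conj g x, hT.cent hg hg1]⟩
    rcases hs y (hyo.symm ▸ h) with h' | h'
    · exact key T₁ h₁ (hyo ▸ h')
    · exact key T₂ h₂ (hyo ▸ h')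

include S in
/-- An element of order prime to three and greater than two has a large prime divisor. -/
theorem exists_big_prime {x : G} (hx2 : 2 < orderOf x) (hx3 : ¬ 3 ∣ orderOf x) :
    ∃ p, p.Prime ∧ p ≠ 2 ∧ p ≠ 3 ∧ p ∣ orderOf x := by
  by_contra hc
  push Not at hc
  have h : ∀ {p : ℕ}, p.Prime → p ∣ orderOf x → p = 2 := by
    intro p hp hd
    by_contra h2
    by_cases h3 : p = 3
    · exact hx3 (h3 ▸ hd)
    · exact hc p hp h2 h3 hd
  have h2 := Nat.eq_prime_pow_of_unique_prime_dvd (orderOf_pos x).ne' h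
  rw [h2] at hx2
  set k := (orderOf x).primeFactorsList.length
  rcases Nat.lt_or_ge k 2 with hk | hk
  · interval_cases k <;> norm_num at hx2
  · exact S.not_four_dvd x (h2 ▸ pow_dvd_pow 2 hk)

end Cfsg.Agent.ReeCover
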