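import Mathlib

/-!
# Eigenvectors of the one-parameter family, and the relation on the tori
-/

set_option autoImplicit false
set_option linter.unusedSimpArgs false

namespace Cfsg.Agent.ReeCover

open Matrix

variable {L : Type*} [Field L] [CharP L 3]

theorem three_zero : (3 : L) = 0 := by exact_mod_cast CharP.cast_eq_zero L 3

/-- The first matrix of the family. -/
def famP (W V : L) : Matrix (Fin 7) (Fin 7) L :=
  !![-1, W, 0, 0, 0, 0, 0; W, W * W, V, 0, 0, 0, -1; 0, -V, 0, W, 0, -1, 0; 0, 0, -W, 0, -1, 0, 0;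
    0, 0, 0, -1, 0, 0, 0; 0, 0, -1, 0, 0, 0, 0; 0, -1, 0, 0, 0, 0, 0]

/-- The second matrix of the family. -/
def famM (W V : L) : Matrix (Fin 7) (Fin 7) L :=
  !![-1, W, 0, 0, 0, 0, 0; -W, -(W * W), -V, 0, 0, 0, 1; 0, -V, 0, W, 0, -1, 0; 0, 0, W, 0, 1, 0, 0;
    0, 0, 0, 1, 0, 0, 0; 0, 0, -1, 0, 0, 0, 0; 0, 1, 0, 0, 0, 0, 0]

/-- The characteristic equation. -/
def famEq (s S u : L) : L := (s - u + 1) * (u ^ 2 - 1 + s) - (u - 1) * S

theorem exists_eigvec_pos {W V ζ : L} (hz : ζ ≠ 0) (hz2 : ζ ^ 2 ≠ 1) (hV : V = 0 → W = 0)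
    (h : famEq (W * W) (V * V) (ζ + ζ⁻¹) = 0) :
    ∃ v : Fin 7 → L, v ≠ 0 ∧ (famP W V).mulVec v = ζ • v := by
  have h3 := three_zero (L := L)
  have h1 : ζ + 1 ≠ 0 := fun e => hz2 (by linear_combination (ζ - 1) * e)
  set k := ζ - ζ⁻¹ with hk
  have hk0 : k ≠ 0 := by
    intro e
    refine hz2 ?_
    rw [hk, sub_eq_zero] at e
    field_simp at e
    linear_combination e
  set v1 := k ^ 2 + W * W with hv1
  refine ⟨![W * v1 / (ζ + 1), v1, -(k * V), W * V, -(W * V) / ζ, k * V / ζ, -v1 / ζ], ?_, ?_⟩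
  · intro e
    have e1 : v1 = 0 := congrFun e 1
    have e2 : -(k * V) = 0 := congrFun e 2
    have hV0 : V = 0 := (mul_eq_zero.1 (neg_eq_zero.1 e2)).resolve_left hk0
    rw [hv1, hV hV0, mul_zero, add_zero] at e1
    exact hk0 (pow_eq_zero_iff two_ne_zero |>.1 e1)
  · ext i
    fin_cases i <;> simp [famP, Matrix.mulVec, dotProduct, Fin.sum_univ_succ, hk, hv1] <;>
      field_simp
    all_goals try ring1
    · -- the equation
      simp only [famEq] at h
      field_simp at h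
      ring_nf at h ⊢
      grind

theorem exists_eigvec_neg {W V ζ : L} (hz : ζ ≠ 0) (hz2 : ζ ^ 2 ≠ 1) (hV : V = 0 → W = 0)
    (h : famEq (-(W * W)) (-(V * V)) (ζ + ζ⁻¹) = 0) :
    ∃ v : Fin 7 → L, v ≠ 0 ∧ (famM W V).mulVec v = ζ • v := by
  have h3 := three_zero (L := L)
  have h1 : ζ + 1 ≠ 0 := fun e => hz2 (by linear_combination (ζ - 1) * e)
  set k := ζ - ζ⁻¹ with hk
  have hk0 : k ≠ 0 := by
    intro e
    refine hz2 ?_
    rw [hk, sub_eq_zero] at e
    field_simp at e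
    linear_combination e
  set v1 := W * W - k ^ 2 with hv1
  refine ⟨![W * v1 / (ζ + 1), v1, k * V, W * V, W * V / ζ, -(k * V) / ζ, v1 / ζ], ?_, ?_⟩
  · intro e
    have e1 : v1 = 0 := congrFun e 1
    have e2 : k * V = 0 := congrFun e 2
    have hV0 : V = 0 := (mul_eq_zero.1 e2).resolve_left hk0
    rw [hv1, hV hV0, mul_zero, zero_sub, neg_eq_zero] at e1
    exact hk0 (pow_eq_zero_iff two_ne_zero |>.1 e1)
  · ext i
    fin_cases i <;> simp [famM, Matrix.mulVec, dotProduct, Fin.sum_univ_succ, hk, hv1] <;>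
      field_simp
    all_goals try ring1
    · simp only [famEq] at h
      field_simp at h
      ring_nf at h ⊢
      grind

/-- Elements of a torus satisfy the equation. -/
theorem famEq_torus {A B σ lg : L} (hA : A ≠ 0) (hB : B ≠ 0)
    (hσ : σ = A + A⁻¹ + B + B⁻¹ + A * B + (A * B)⁻¹)
    (hl : lg = A / B + B / A + A * A * B + (A * A * B)⁻¹ + A * B * B + (A * B * B)⁻¹) :
    famEq (σ - 1) (lg - 1) (A + A⁻¹) = 0 := by
  have h3 := three_zero (L := L)
  subst hσ hl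
  simp only [famEq]
  field_simp
  ring_nf
  simp [h3]

end Cfsg.Agent.ReeCover
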