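import Cfsg.Agent.ReeCover.Bound
import Cfsg.Agent.ReeLocal.Results
import Cfsg.Agent.S2455

/-!
# The centraliser of an involution
-/

set_option autoImplicit false
set_option linter.unusedSectionVars false
set_option linter.style.haveILetI false

namespace Cfsg.Agent.ReeCover

open Matrix
open scoped MatrixGroups
open Cfsg.Agent.ReeLocal (Sys)

section PSL

variable {F : Type*} [Field F] [Fintype F]

/-- An element of `SL₂` with distinct eigenvalues is inverted by an element of `SL₂`. -/
theorem exists_inverts (h2 : (2 : F) ≠ 0) (hodd : Fintype.card F % 2 = 1) (A : SL(2, F))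
    (ht : (A : Matrix (Fin 2) (Fin 2) F).trace ^ 2 ≠ 4) : ∃ S : SL(2, F), S * A * S⁻¹ = A⁻¹ := by
  have hd := A.2
  rw [Matrix.det_fin_two] at hd
  rw [Matrix.trace_fin_two] at ht
  set p := (A : Matrix (Fin 2) (Fin 2) F) 0 0
  set r := (A : Matrix (Fin 2) (Fin 2) F) 0 1
  set s := (A : Matrix (Fin 2) (Fin 2) F) 1 0
  set t := (A : Matrix (Fin 2) (Fin 2) F) 1 1
  suffices h : ∃ a b b' : F, a * (p - t) + b * s + b' * r = 0 ∧ -(a * a) - b * b' = 1 by
    obtain ⟨a, b, b', he, hdet⟩ := h
    refine ⟨Spec.Two.mk !![a, b; b', -a] (by rw [Matrix.det_fin_two]; simpa using hdet), ?_⟩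
    rw [mul_inv_eq_iff_eq_mul]
    refine Subtype.ext ?_
    show !![a, b; b', -a] * (A : Matrix (Fin 2) (Fin 2) F) =
      (A⁻¹ : SL(2, F)).1 * !![a, b; b', -a]
    rw [Matrix.SpecialLinearGroup.coe_inv, Matrix.adjugate_fin_two]
    ext i j
    fin_cases i <;> fin_cases j <;> simp [Matrix.mul_apply, Fin.sum_univ_two] <;>
      first | linear_combination he | linear_combination (-1 : F) * he | ring1
  by_cases hs : s = 0
  · have hpt : p - t ≠ 0 := fun e => ht (by linear_combination (4 : F) * r * hs + (p - t) * e + 4 * hd)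
    refine ⟨-r / (p - t), -1 - r / (p - t) * (r / (p - t)), 1, ?_, by field_simp; ring⟩
    rw [hs]; field_simp; ring
  · set e := ((p + t) ^ 2 - 4) / (2 * s) ^ 2 with he
    have he0 : e ≠ 0 := div_ne_zero (sub_ne_zero.2 ht)
      (pow_ne_zero _ (mul_ne_zero h2 hs))
    obtain ⟨X, Y, hXY⟩ := FiniteField.exists_root_sum_quadratic
      (f := -(Polynomial.X ^ 2 : Polynomial F) - Polynomial.C 1) (g := Polynomial.C e * Polynomial.X ^ 2)
      (by compute_degree!) (by compute_degree!) hodd
    simp only [Polynomial.eval_sub, Polynomial.eval_neg, Polynomial.eval_pow, Polynomial.eval_X,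
      Polynomial.eval_C, Polynomial.eval_mul] at hXY
    refine ⟨X + (p - t) / (2 * s) * Y, -((X + (p - t) / (2 * s) * Y) * (p - t) + Y * r) / s, Y, ?_, ?_⟩
    · field_simp; ring
    · rw [he] at hXY
      field_simp at hXY ⊢
      linear_combination hXY + (-4 : F) * Y ^ 2 * hd

end PSL

variable {G : Type*} [Group G] [Finite G] {F : Type*} [Field F] [Fintype F] (S : ReeLocal.Sys G F)

local notation "q" => Fintype.card F

include S in
theorem PSL_two_ne : (2 : F) ≠ 0 := by
  haveI := S.charP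
  exact ReeLocal.two_ne

include S in
theorem PSL_odd : Fintype.card F % 2 = 1 := by have := S.nums; omega

/-- The element of the second factor of an element of the centraliser is not of order at most two. -/
theorem proj_order {x : G} (hx : x * S.t = S.t * x) (hx2 : 2 < orderOf x) (hx3 : ¬ 3 ∣ orderOf x) :
    2 < orderOf (S.proj ⟨x, ReeLocal.mem_cent.2 hx⟩) ∧ ¬ 3 ∣ orderOf (S.proj ⟨x, ReeLocal.mem_cent.2 hx⟩) := by
  set x' : Subgroup.centralizer ({S.t} : Set G) := ⟨x, ReeLocal.mem_cent.2 hx⟩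
  have hd : orderOf (S.proj x') ∣ orderOf x := by
    rw [show orderOf x = orderOf x' from Subgroup.orderOf_coe x']
    exact orderOf_map_dvd S.proj x'
  refine ⟨?_, fun h => hx3 (h.trans hd)⟩
  by_contra hle
  have h4 := S.not_four_dvd x
  have hpos := orderOf_pos (S.proj x')
  have hsq : S.proj x' ^ 2 = 1 := by
    refine orderOf_dvd_iff_pow_eq_one.1 ?_
    interval_cases (orderOf (S.proj x')) <;> norm_num
  have : x' ^ 2 = 1 := by
    refine S.e.injective ?_
    rw [map_pow, map_one]
    refine Prod.ext ?_ hsq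
    have key : ∀ w : Multiplicative (ZMod 2), w ^ 2 = 1 := by decide
    exact key _
  have h' : x ^ 2 = 1 := by
    have := congrArg Subtype.val this
    simpa using this
  have := Nat.le_of_dvd two_pos (orderOf_dvd_of_pow_eq_one h')
  omega

/-- Semisimple elements commuting with the involution are real. -/
theorem real_of_cent {x : G} (hx : x * S.t = S.t * x) (hx2 : 2 < orderOf x) (hx3 : ¬ 3 ∣ orderOf x) :
    IsConj x x⁻¹ := by
  haveI := S.charP
  obtain ⟨hl2, hl3⟩ := proj_order S hx hx2 hx3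
  set x' : Subgroup.centralizer ({S.t} : Set G) := ⟨x, ReeLocal.mem_cent.2 hx⟩
  obtain ⟨A, hA⟩ := Spec.Two.π_surjective (S.proj x')
  haveI : Fact (Nat.Prime 3) := ⟨Nat.prime_three⟩
  have ht : (A : Matrix (Fin 2) (Fin 2) F).trace ^ 2 ≠ 4 := by
    intro h
    have h' := orderOf_dvd_of_pow_eq_one (Spec.Two.π_pow_char_of_trace_sq 3 A h)
    rw [hA] at h'
    rcases (Nat.dvd_prime Nat.prime_three).1 h' with e | e <;> rw [e] at hl2
    · omega
    · exact hl3 (by rw [e])
  obtain ⟨K, hK⟩ := exists_inverts (PSL_two_ne S) (PSL_odd S) A ht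
  have hk : Spec.Two.π K * S.proj x' * (Spec.Two.π K)⁻¹ = (S.proj x')⁻¹ := by
    rw [← hA, ← map_inv, ← map_mul, ← map_mul, hK, map_inv]
  let c : Subgroup.centralizer ({S.t} : Set G) := S.e.symm (1, Spec.Two.π K)
  have hc : c * x' * c⁻¹ = x'⁻¹ := by
    refine S.e.injective ?_
    simp only [c, map_mul, map_inv, MulEquiv.apply_symm_apply]
    refine Prod.ext ?_ hk
    have key : ∀ w : Multiplicative (ZMod 2), 1 * w * 1⁻¹ = w⁻¹ := by decide
    exact key _
  exact isConj_iff.2 ⟨(c : G), congrArg Subtype.val hc⟩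

/-- An involution is a product of two conjugates of a semisimple element commuting with one. -/
theorem isTwo_inv_of_cent {x : G} (hx : x * S.t = S.t * x) (hx2 : 2 < orderOf x) (hx3 : ¬ 3 ∣ orderOf x)
    {g : G} (hg : g * g = 1) (hg1 : g ≠ 1) : IsTwo x g := by
  haveI := S.charP
  haveI : Fact (Nat.Prime 3) := ⟨Nat.prime_three⟩
  obtain ⟨hl2, hl3⟩ := proj_order S hx hx2 hx3
  set x' : Subgroup.centralizer ({S.t} : Set G) := ⟨x, ReeLocal.mem_cent.2 hx⟩
  have h27 := S.q_ge
  obtain ⟨i, hi⟩ := exists_prime_orderOf_dvd_card' (G := Matrix.ProjectiveSpecialLinearGroup (Fin 2) F) 2 (by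
    have := ReeLocal.card_L (F := F) S.q_mod
    have h8 := S.q_mod
    have e : Fintype.card F * (Fintype.card F - 1) * (Fintype.card F + 1) =
        2 * (Fintype.card F * (Fintype.card F - 1) * ((Fintype.card F + 1) / 2)) := by
      conv_lhs => rw [show Fintype.card F + 1 = 2 * ((Fintype.card F + 1) / 2) by omega]
      ring
    rw [e] at this
    have := Nat.eq_of_mul_eq_mul_left two_pos this
    rw [this]
    exact Dvd.dvd.mul_left (show 2 ∣ (Fintype.card F + 1) / 2 by omega) _)
  obtain ⟨u, v, huv⟩ := S2455.result 3 (by norm_num) (by omega) (S.proj x') hl2 hl3 i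
    (fun e => by rw [e, orderOf_one] at hi; omega)
  have hI : IsTwo x (S.inj i) := by
    refine ⟨S.inj u, S.inj v, ?_⟩
    have : S.e.symm (1, i) = (S.e.symm (1, u) * x' * (S.e.symm (1, u))⁻¹) *
        (S.e.symm (1, v) * x' * (S.e.symm (1, v))⁻¹) := by
      refine S.e.injective ?_
      simp only [map_mul, map_inv, MulEquiv.apply_symm_apply]
      refine Prod.ext ?_ huv
      have key : ∀ w : Multiplicative (ZMod 2), 1 = (1 * w * 1⁻¹) * (1 * w * 1⁻¹) := by decide
      exact key _
    exact congrArg Subtype.val this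
  obtain ⟨a, ha⟩ := S.inv_conj (v := S.inj i) (by
    rw [← map_mul, ← pow_two, orderOf_dvd_iff_pow_eq_one.1 hi.dvd, map_one])
    (fun e => by rw [← S.orderOf_inj, e, orderOf_one] at hi; omega)
  obtain ⟨b, hb⟩ := S.inv_conj hg hg1
  have h1 := hI.conj (b * a⁻¹)
  rw [← ha] at h1
  rw [← hb]
  convert h1 using 1
  group

end Cfsg.Agent.ReeCover
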