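import Cfsg.Agent.ReeCover.Cent

/-!
# Eigenvalues on the large tori
-/

set_option autoImplicit false
set_option linter.unusedSectionVars false
set_option linter.style.haveILetI false

namespace Cfsg.Agent.ReeCover

open Matrix
open Cfsg.Agent.ReeLocal (Sys IsTor mem_cent orderOf_conj orderOf_ne_one cent_conj)

variable {G : Type*} [Group G] [Finite G] {F : Type*} [Field F] [Fintype F] (S : ReeLocal.Sys G F)

local notation "q" => Fintype.card F
local notation "L" => AlgebraicClosure F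

/-- The matrix of an element over the algebraic closure. -/
noncomputable def repL (a : G) : Matrix (Fin 7) (Fin 7) (AlgebraicClosure F) :=
  (S.rep a : Matrix (Fin 7) (Fin 7) F).map (algebraMap F (AlgebraicClosure F))

theorem repL_mul (a b : G) : repL S (a * b) = repL S a * repL S b := by
  rw [repL, map_mul, Units.val_mul, Matrix.map_mul]
  rfl

theorem repL_one : repL S (1 : G) = 1 := by
  rw [repL, map_one, Units.val_one, Matrix.map_one _ (map_zero _) (map_one _)]

/-- `z` is an eigenvalue of `a`. -/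
def IsEig (a : G) (z : AlgebraicClosure F) : Prop :=
  ∃ v : Fin 7 → AlgebraicClosure F, v ≠ 0 ∧ (repL S a).mulVec v = z • v

theorem IsEig.pow {a : G} {z : L} (h : IsEig S a z) (k : ℕ) : IsEig S (a ^ k) (z ^ k) := by
  obtain ⟨v, hv, he⟩ := h
  refine ⟨v, hv, ?_⟩
  induction k with
  | zero => simp [repL_one]
  | succ k ih => rw [pow_succ', repL_mul, ← Matrix.mulVec_mulVec, ih, Matrix.mulVec_smul, he, smul_smul, pow_succ]

theorem IsEig.pow_orderOf {a : G} {z : L} (h : IsEig S a z) : z ^ orderOf a = 1 := by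
  obtain ⟨v, hv, he⟩ := h.pow S (orderOf a)
  rw [pow_orderOf_eq_one, repL_one, Matrix.one_mulVec] at he
  exact (smul_left_injective L hv ((one_smul L v).trans he)).symm

theorem IsEig.conj {a : G} {z : L} (h : IsEig S a z) (g : G) : IsEig S (g * a * g⁻¹) z := by
  obtain ⟨v, hv, he⟩ := h
  refine ⟨(repL S g).mulVec v, fun e => hv ?_, ?_⟩
  · have := congrArg (repL S g⁻¹).mulVec e
    rwa [Matrix.mulVec_mulVec, ← repL_mul, inv_mul_cancel, repL_one, Matrix.one_mulVec, Matrix.mulVec_zero] at this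
  · rw [Matrix.mulVec_mulVec, ← repL_mul, show g * a * g⁻¹ * g = g * a by group, repL_mul, ← Matrix.mulVec_mulVec, he,
      Matrix.mulVec_smul]

/-- A vector moved to a multiple by a matrix with simple spectrum is a basis vector up to a scalar. -/
theorem eq_smul_basis {M : Matrix (Fin 7) (Fin 7) L} {b : Module.Basis (Fin 7) L (Fin 7 → L)}
    {μ : Fin 7 → L} (hμ : Function.Injective μ) (hb : ∀ i, M.mulVec (b i) = μ i • b i)
    {w : Fin 7 → L} {ν : L} (hw0 : w ≠ 0) (hw : M.mulVec w = ν • w) :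
    ∃ j, μ j = ν ∧ ∃ c : L, c ≠ 0 ∧ w = c • b j := by
  have h : ∀ k, (μ k - ν) * b.repr w k = 0 := by
    intro k
    have h1 : M.mulVec w = ∑ l, (μ l * b.repr w l) • b l := by
      conv_lhs => rw [← b.sum_repr w]
      rw [Matrix.mulVec_sum]
      refine Finset.sum_congr rfl fun l _ => ?_
      rw [Matrix.mulVec_smul, hb, smul_smul, mul_comm]
    have h2 := congrArg (fun z => b.repr z k) (hw.symm.trans h1)
    simp only [map_smul, Finsupp.smul_apply, smul_eq_mul, b.repr_sum_self] at h2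
    linear_combination -h2
  obtain ⟨j, hj⟩ : ∃ j, b.repr w j ≠ 0 := by
    by_contra hc
    push Not at hc
    exact hw0 (b.ext_elem fun j => by simp [hc j])
  have hjν : μ j = ν := sub_eq_zero.1 ((mul_eq_zero.1 (h j)).resolve_right hj)
  refine ⟨j, hjν, b.repr w j, hj, ?_⟩
  conv_lhs => rw [← b.sum_repr w]
  refine Finset.sum_eq_single j (fun k _ hk => ?_) fun h => absurd (Finset.mem_univ _) h
  rw [(mul_eq_zero.1 (h k)).resolve_left (sub_ne_zero.2 fun e => hk (hμ (e.trans hjν.symm))), zero_smul]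

/-- The data of the eigenvalues on a large torus. -/
theorem exists_char {A : Subgroup G} (hA : BigTor S A) :
    ∃ χ : G → AlgebraicClosure F, (∀ a ∈ A, ∀ b ∈ A, χ (a * b) = χ a * χ b) ∧
      (∀ a ∈ A, IsEig S a (χ a)) ∧ (∀ a ∈ A, χ a = 1 → a = 1) ∧
      ∀ a ∈ A, ∀ z, IsEig S a z → z = 1 ∨ ∃ e < 6, z = χ a ^ q ^ e := by
  classical
  have hnum := S.nums
  obtain ⟨p, hp, hpA⟩ := Nat.exists_prime_and_dvd hA.2.2.1.ne'
  haveI := Fact.mk hp
  have hpQ := hpA.trans hA.2.1
  obtain ⟨-, hp3, -⟩ := (S.prime_facts hp).2.2 hpQ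
  obtain ⟨z₀, hz₀⟩ := exists_prime_orderOf_dvd_card' p hpA
  set z : G := (z₀ : G)
  have hzA : z ∈ A := z₀.2
  have hzo : orderOf z = p := by rw [Subgroup.orderOf_coe, hz₀]
  obtain ⟨b, μ, hμ, hb, hμc⟩ := ReeLocal.exists_eigen (K := F) hp3 hpQ (S.cast_ne_zero hp hp3) (x := S.rep z)
    (by rw [← map_pow, ← hzo, pow_orderOf_eq_one, map_one])
    (fun e => hp.one_lt.ne (by rw [← hzo, S.rep_inj (e.trans (map_one S.rep).symm), orderOf_one]))
  have hdiag : ∀ a ∈ A, ∀ i, ∃ c : L, (repL S a).mulVec (b i) = c • b i := by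
    intro a ha i
    by_cases h0 : (repL S a).mulVec (b i) = 0
    · exact ⟨0, by rw [h0, zero_smul]⟩
    have : (repL S z).mulVec ((repL S a).mulVec (b i)) = μ i • (repL S a).mulVec (b i) := by
      rw [Matrix.mulVec_mulVec, ← repL_mul, hA.1.comm hzA ha, repL_mul, ← Matrix.mulVec_mulVec]
      show (repL S a).mulVec ((repL S z).mulVec (b i)) = _
      rw [show (repL S z).mulVec (b i) = μ i • b i from hb i, Matrix.mulVec_smul]
    obtain ⟨j, hj, c, -, hc⟩ := eq_smul_basis hμ hb h0 this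
    exact ⟨c, by rw [hc, hμ hj]⟩
  choose m hm using hdiag
  obtain ⟨i, hi⟩ : ∃ i, μ i ≠ 1 := by
    by_contra hc
    push Not at hc
    exact absurd (hμ ((hc 0).trans (hc 1).symm)) (by decide)
  obtain ⟨-, hic⟩ := (hμc i).resolve_left hi
  -- the Frobenius map
  obtain ⟨p₀, hchar⟩ := CharP.exists F
  obtain ⟨n₀, hp₀, hqn⟩ := FiniteField.card F p₀
  haveI := Fact.mk hp₀
  haveI : CharP L p₀ := charP_of_injective_ringHom (algebraMap F L).injective p₀
  have hfrob : ∀ e : ℕ, ∃ Φ : L →+* L, (∀ y, Φ y = y ^ q ^ e) ∧ ∀ c : F, Φ (algebraMap F L c) = algebraMap F L c := by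
    intro e
    refine ⟨iterateFrobenius L p₀ ((n₀ : ℕ) * e), fun y => ?_, fun c => ?_⟩
    · rw [iterateFrobenius_def, hqn, ← pow_mul]
    · rw [iterateFrobenius_def, pow_mul, ← hqn, ← map_pow, FiniteField.pow_card_pow]
  have hmove : ∀ (e : ℕ) (Φ : L →+* L), (∀ y, Φ y = y ^ q ^ e) → (∀ c : F, Φ (algebraMap F L c) = algebraMap F L c) →
      ∀ (a : G) (w : Fin 7 → L) (c : L), (repL S a).mulVec w = c • w →
        (repL S a).mulVec (Φ ∘ w) = Φ c • (Φ ∘ w) := by
    intro e Φ _ hΦ a w c hw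
    funext k
    have h1 := congrArg Φ (congrFun hw k)
    simp only [Matrix.mulVec, dotProduct, map_sum, map_mul, Pi.smul_apply, smul_eq_mul] at h1
    simp only [Matrix.mulVec, dotProduct, Function.comp_apply, Pi.smul_apply, smul_eq_mul]
    rw [← h1]
    exact Finset.sum_congr rfl fun l _ => by rw [repL, Matrix.map_apply, hΦ]
  have hrel : ∀ (k j : Fin 7) (e : ℕ), μ j = μ k ^ q ^ e → ∀ a (ha : a ∈ A), m a ha j = m a ha k ^ q ^ e := by
    intro k j e he a ha
    obtain ⟨Φ, hΦ1, hΦ2⟩ := hfrob e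
    have hw0 : (Φ ∘ b k : Fin 7 → L) ≠ 0 := fun h => b.ne_zero k
      (funext fun l => Φ.injective (by simpa using congrFun h l))
    obtain ⟨j', hj', c, hc0, hc⟩ := eq_smul_basis hμ hb hw0 (hmove e Φ hΦ1 hΦ2 z _ _ (hb k))
    rw [hΦ1, ← he] at hj'
    obtain rfl := hμ hj'
    have h1 := hmove e Φ hΦ1 hΦ2 a _ _ (hm a ha k)
    rw [hc, Matrix.mulVec_smul, hm a ha, hΦ1, smul_smul, smul_smul] at h1
    have h2 := smul_left_injective L (b.ne_zero j') h1
    refine mul_left_cancel₀ hc0 ?_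
    rw [show c * m a ha j' = c * m a ha j' from rfl, h2]
    ring
  have hEig : ∀ a (ha : a ∈ A) (k : Fin 7), IsEig S a (m a ha k) := fun a ha k => ⟨b k, b.ne_zero k, hm a ha k⟩
  have hone : ∀ (j : Fin 7), μ j = 1 → ∀ a (ha : a ∈ A), m a ha j = 1 := by
    intro j hj a ha
    have h1 := hrel j j 1 (by rw [hj, one_pow]) a ha
    rw [pow_one] at h1
    have h2 := (hEig a ha j).pow_orderOf S
    have hd : orderOf (m a ha j) ∣ Nat.card A := (orderOf_dvd_of_pow_eq_one h2).trans (A.orderOf_dvd_natCard ha)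
    have hne : m a ha j ≠ 0 := by
      intro h0
      rw [h0, zero_pow (orderOf_pos a).ne'] at h2
      exact zero_ne_one h2
    have h3 : m a ha j ^ (q - 1) = 1 := by
      refine mul_right_cancel₀ hne ?_
      rw [one_mul, ← pow_succ, Nat.sub_add_cancel (by omega : 1 ≤ q)]
      exact h1.symm
    have hcop : (q - 1).Coprime (Nat.card A) := by
      refine Nat.coprime_of_dvd fun r hr ha' hb' => ?_
      obtain ⟨hr2, -, -, hrh, -⟩ := (S.prime_facts hr).2.2 (hb'.trans hA.2.1)
      rw [show q - 1 = 2 * ((q - 1) / 2) by omega] at ha'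
      rcases hr.dvd_mul.1 ha' with h | h
      · exact hr2 ((Nat.prime_dvd_prime_iff_eq hr Nat.prime_two).1 h)
      · exact hrh h
    exact orderOf_eq_one_iff.1 (Nat.eq_one_of_dvd_coprimes hcop (orderOf_dvd_of_pow_eq_one h3) hd)
  have hall : ∀ (j : Fin 7) a (ha : a ∈ A), m a ha j = 1 ∨ ∃ e < 6, m a ha j = m a ha i ^ q ^ e := by
    intro j a ha
    by_cases hj : μ j = 1
    · exact Or.inl (hone j hj a ha)
    · obtain ⟨e, he6, he⟩ := hic j hj
      exact Or.inr ⟨e, he6, hrel i j e he a ha⟩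
  refine ⟨fun a => if ha : a ∈ A then m a ha i else 1, fun a ha c hc => ?_, fun a ha => ?_, fun a ha h1 => ?_,
    fun a ha w hw => ?_⟩
  · simp only [dif_pos ha, dif_pos hc, dif_pos (mul_mem ha hc)]
    have h := hm (a * c) (mul_mem ha hc) i
    rw [repL_mul, ← Matrix.mulVec_mulVec, hm c hc, Matrix.mulVec_smul, hm a ha, smul_smul] at h
    rw [← smul_left_injective L (b.ne_zero i) h, mul_comm]
  · simp only [dif_pos ha]; exact hEig a ha i
  · simp only [dif_pos ha] at h1
    apply S.rep_inj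
    rw [map_one]
    refine Units.ext (Matrix.map_injective (algebraMap F L).injective ?_)
    refine Matrix.toLin'.injective (b.ext fun j => ?_)
    show (repL S a).mulVec (b j) = ((1 : Matrix (Fin 7) (Fin 7) F).map (algebraMap F L)).mulVec (b j)
    rw [Matrix.map_one _ (map_zero _) (map_one _), Matrix.one_mulVec, hm a ha]
    rcases hall j a ha with h | ⟨e, -, h⟩
    · rw [h, one_smul]
    · rw [h, h1, one_pow, one_smul]
  · simp only [dif_pos ha]
    obtain ⟨w₀, hw₀, hwe⟩ := hw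
    by_contra hc
    push Not at hc
    refine hw₀ (b.ext_elem fun j => ?_)
    have h1 : (repL S a).mulVec w₀ = ∑ l, (m a ha l * b.repr w₀ l) • b l := by
      conv_lhs => rw [← b.sum_repr w₀]
      rw [Matrix.mulVec_sum]
      refine Finset.sum_congr rfl fun l _ => ?_
      rw [Matrix.mulVec_smul, hm a ha, smul_smul, mul_comm]
    have h2 := congrArg (fun v => b.repr v j) (hwe.symm.trans h1)
    simp only [map_smul, Finsupp.smul_apply, smul_eq_mul, b.repr_sum_self] at h2
    rw [map_zero, Finsupp.zero_apply]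
    by_contra hne
    have h3 := mul_right_cancel₀ hne h2
    rcases hall j a ha with h | ⟨e, he, h⟩
    · exact hc.1 (h3.trans h)
    · exact hc.2 e he (h3.trans h)

/-- The normaliser of a large torus realises the Frobenius powers. -/
theorem exists_conj_frob {A : Subgroup G} (hA : BigTor S A) (e : ℕ) :
    ∀ a ∈ A, ∃ n : G, n * a * n⁻¹ = a ^ q ^ e := by
  classical
  obtain ⟨χ, hmul, heig, hinj, hspec⟩ := exists_char S hA
  haveI := hA.1.cyclic
  obtain ⟨g₀, hg₀⟩ := IsCyclic.exists_ofOrder_eq_natCard (α := A)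
  set g : G := (g₀ : G)
  have hgA : g ∈ A := g₀.2
  have hgo : orderOf g = Nat.card A := by rw [Subgroup.orderOf_coe, hg₀]
  have hg1 : g ≠ 1 := fun h => hA.2.2.1.ne (by rw [← hgo, h, orderOf_one])
  have hχ1 : χ 1 = 1 := by
    obtain ⟨v, hv, he⟩ := heig 1 A.one_mem
    rw [repL_one, Matrix.one_mulVec] at he
    exact (smul_left_injective L hv ((one_smul L v).trans he)).symm
  have hpow : ∀ a ∈ A, ∀ k : ℕ, χ (a ^ k) = χ a ^ k := by
    intro a ha k
    induction k with
    | zero => rw [pow_zero, pow_zero, hχ1]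
    | succ k ih => rw [pow_succ, pow_succ, hmul _ (pow_mem ha k) _ ha, ih]
  have hinjA : ∀ a ∈ A, ∀ c ∈ A, χ a = χ c → a = c := by
    intro a ha c hc h
    refine mul_inv_eq_one.1 (hinj _ (mul_mem ha (inv_mem hc)) ?_)
    have h1 := hmul c hc c⁻¹ (inv_mem hc)
    rw [mul_inv_cancel, hχ1] at h1
    rw [hmul a ha _ (inv_mem hc), h, ← h1]
  set N := Subgroup.normalizer (A : Set G)
  have hN : ∀ n : N, ∃ j : Fin 6, (n : G) * g * (n : G)⁻¹ = g ^ q ^ (j : ℕ) := by
    intro n
    have hmem : (n : G) * g * (n : G)⁻¹ ∈ A := (Subgroup.mem_normalizer_iff.1 n.2 g).1 hgA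
    rcases hspec _ hmem _ ((heig g hgA).conj S n) with h | ⟨j, hj, h⟩
    · exact absurd (hinj g hgA h) hg1
    · -- reverse the exponent
      have hval : ∀ (k : ℕ), χ ((n : G) * g * (n : G)⁻¹) ^ k = χ (((n : G) * g * (n : G)⁻¹) ^ k) := fun k =>
        (hpow _ hmem k).symm
      rw [hval] at h
      have h1 := hinjA _ hgA _ (pow_mem hmem _) h
      refine ⟨⟨(6 - j) % 6, Nat.mod_lt _ (by norm_num)⟩, ?_⟩
      show _ = g ^ q ^ ((6 - j) % 6)
      conv_rhs => rw [h1, ← pow_mul, ← pow_add]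
      obtain ⟨k, hk⟩ : ∃ k, j + (6 - j) % 6 = 6 * k := ⟨(j + (6 - j) % 6) / 6, by omega⟩
      rw [hk]
      refine (pow_one _).symm.trans ((pow_eq_pow_iff_modEq).2 ?_)
      rw [orderOf_conj, hgo]
      have h6 : q ^ 6 ≡ 1 [MOD Nat.card A] := by
        refine ((Nat.modEq_iff_dvd' (Nat.one_le_pow _ _ Fintype.card_pos)).2 (hA.2.1.trans ?_)).symm
        have hqq : q ≤ q ^ 2 := Nat.le_self_pow two_ne_zero _
        refine ⟨(q + 1) * (q ^ 3 - 1), ?_⟩
        zify [hqq, Nat.one_le_pow 3 q Fintype.card_pos, Nat.one_le_pow 6 q Fintype.card_pos]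
        ring
      rw [pow_mul]
      simpa using (h6.pow k).symm
  choose f hf using hN
  obtain ⟨n, hn⟩ : ∃ n : N, f n = ⟨e % 6, Nat.mod_lt _ (by norm_num)⟩ := by
    by_contra hc
    push Not at hc
    letI := Fintype.ofFinite N
    letI := Fintype.ofFinite A
    have h1 : ∀ j : Fin 6, (Finset.univ.filter fun n : N => f n = j).card ≤ Nat.card A := by
      intro j
      rcases (Finset.univ.filter fun n : N => f n = j).eq_empty_or_nonempty with h | ⟨n₀, hn₀⟩
      · rw [h]; simp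
      · have hf₀ : f n₀ = j := (Finset.mem_filter.1 hn₀).2
        rw [Nat.card_eq_fintype_card, ← Finset.card_univ (α := A)]
        refine Finset.card_le_card_of_injOn
          (fun n : N => if h : (n₀ : G)⁻¹ * n ∈ A then (⟨_, h⟩ : A) else 1) (fun n _ => Finset.mem_univ _) ?_
        have hin : ∀ n : N, f n = j → (n₀ : G)⁻¹ * n ∈ A := by
          intro n hn
          rw [← hA.cent hgA hg1]
          refine mem_cent.2 ?_
          have e1 : (n : G) * g * (n : G)⁻¹ = (n₀ : G) * g * (n₀ : G)⁻¹ := by rw [hf n, hf n₀, hn, hf₀]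
          calc (n₀ : G)⁻¹ * n * g = (n₀ : G)⁻¹ * ((n : G) * g * (n : G)⁻¹) * n := by group
            _ = (n₀ : G)⁻¹ * ((n₀ : G) * g * (n₀ : G)⁻¹) * n := by rw [e1]
            _ = _ := by group
        intro n hn n' hn' he
        simp only [dif_pos (hin n (Finset.mem_filter.1 hn).2), dif_pos (hin n' (Finset.mem_filter.1 hn').2),
          Subtype.mk.injEq] at he
        exact Subtype.ext (mul_left_cancel he)
    have h2 : Nat.card N = ∑ j : Fin 6, (Finset.univ.filter fun n : N => f n = j).card := by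
      rw [Nat.card_eq_fintype_card, ← Finset.card_univ,
        Finset.card_eq_sum_card_fiberwise (fun n _ => Finset.mem_univ (f n))]
    have h0 : (Finset.univ.filter fun n : N => f n = ⟨e % 6, Nat.mod_lt _ (by norm_num)⟩).card = 0 :=
      Finset.card_eq_zero.2 (Finset.filter_eq_empty_iff.2 fun n _ => hc n)
    rw [hA.2.2.2.2.1, ← Finset.add_sum_erase _ _ (Finset.mem_univ (⟨e % 6, Nat.mod_lt _ (by norm_num)⟩ : Fin 6)), h0, zero_add] at h2
    have h3 := h2.le.trans (Finset.sum_le_card_nsmul _ _ _ fun j _ => h1 j)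
    rw [Finset.card_erase_of_mem (Finset.mem_univ _), Finset.card_fin, smul_eq_mul] at h3
    have := hA.2.2.1
    omega
  intro a ha
  refine ⟨n, ?_⟩
  obtain ⟨k, hk⟩ : ∃ k : ℕ, g ^ k = a := by
    have : (⟨a, ha⟩ : A) ∈ Subgroup.zpowers g₀ := by
      rw [Subgroup.eq_top_of_card_eq (Subgroup.zpowers g₀) (by rw [Nat.card_zpowers, hg₀])]
      trivial
    obtain ⟨k, hk⟩ := (IsOfFinOrder.mem_powers_iff_mem_zpowers (isOfFinOrder_of_finite g₀)).2 this
    exact ⟨k, by simpa using congrArg Subtype.val hk⟩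
  rw [← hk, ← conj_pow, hf n, hn, ← pow_mul, ← pow_mul, pow_eq_pow_iff_modEq, hgo]
  have h6 : q ^ 6 ≡ 1 [MOD Nat.card A] := by
    refine ((Nat.modEq_iff_dvd' (Nat.one_le_pow _ _ Fintype.card_pos)).2 (hA.2.1.trans ?_)).symm
    have hqq : q ≤ q ^ 2 := Nat.le_self_pow two_ne_zero _
    refine ⟨(q + 1) * (q ^ 3 - 1), ?_⟩
    zify [hqq, Nat.one_le_pow 3 q Fintype.card_pos, Nat.one_le_pow 6 q Fintype.card_pos]
    ring
  show q ^ (e % 6) * k ≡ k * q ^ e [MOD Nat.card A]
  rw [mul_comm k]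
  refine Nat.ModEq.mul_right _ ?_
  conv_rhs => rw [← Nat.mod_add_div e 6, pow_add, pow_mul]
  simpa using ((h6.pow (e / 6)).mul_left (q ^ (e % 6))).symm

end Cfsg.Agent.ReeCover
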