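import Cfsg.Agent.ReeCover.Bound
import Cfsg.Agent.ReeCover.Low
import Cfsg.Agent.ReeCover.Cent
import Cfsg.Agent.ReeCover.Spectrum

/-!
# Realness, centralisers and the action on the conjugates of `U`
-/

set_option autoImplicit false
set_option linter.unusedSectionVars false
set_option linter.style.haveILetI false

namespace Cfsg.Agent.ReeCover

theorem IsTwo.inv {G : Type*} [Group G] [Finite G] {x g : G} (hx : IsConj x x⁻¹) (h : IsTwo x g) :
    IsTwo x g⁻¹ := by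
  obtain ⟨k, hk⟩ := isConj_iff.1 hx
  obtain ⟨u, v, rfl⟩ := h
  refine ⟨v * k, u * k, ?_⟩
  calc (u * x * u⁻¹ * (v * x * v⁻¹))⁻¹ = v * x⁻¹ * v⁻¹ * (u * x⁻¹ * u⁻¹) := by group
    _ = v * (k * x * k⁻¹) * v⁻¹ * (u * (k * x * k⁻¹) * u⁻¹) := by rw [hk]
    _ = _ := by group

theorem IsTwo.of_comm {G : Type*} [Group G] [Finite G] {x y : G} (hx : IsConj x x⁻¹) (hy : IsConj x y)
    (τ : G) : IsTwo x (y⁻¹ * (τ⁻¹ * y * τ)) := by
  obtain ⟨b, hb⟩ := isConj_iff.1 hx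
  obtain ⟨a, ha⟩ := isConj_iff.1 hy
  refine ⟨a * b, τ⁻¹ * a, ?_⟩
  subst ha
  calc (a * x * a⁻¹)⁻¹ * (τ⁻¹ * (a * x * a⁻¹) * τ) = a * x⁻¹ * a⁻¹ * (τ⁻¹ * a * x * (τ⁻¹ * a)⁻¹) := by group
    _ = a * (b * x * b⁻¹) * a⁻¹ * (τ⁻¹ * a * x * (τ⁻¹ * a)⁻¹) := by rw [hb]
    _ = _ := by group

variable {G : Type*} [Group G] [Finite G] {F : Type*} [Field F] [Fintype F] (S : ReeLocal.Sys G F)

local notation "q" => Fintype.card F

open Cfsg.Agent.ReeLocal (orderOf_conj mem_cent)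

include S in
theorem r_bound : 3 * 3 ^ (S.m + 1) ≤ q := by
  rw [← pow_succ', S.cardF]
  have := S.one_le
  exact Nat.pow_le_pow_right (by norm_num) (by omega)

include S in
theorem card_cent_le {x : G} {p : ℕ} (hp : p.Prime) (hp2 : p ≠ 2) (hp3 : p ≠ 3) (hpx : p ∣ orderOf x) :
    Nat.card (Subgroup.centralizer ({x} : Set G)) ≤ q + 3 ^ (S.m + 1) + 1 := by
  rcases cases_big_prime S hp hp2 hp3 hpx with ⟨-, h, -⟩ | ⟨-, h, -⟩ | ⟨A, g, hA, -, h⟩
  · exact h.trans (by generalize 3 ^ (S.m + 1) = r; omega)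
  · rw [h]; generalize 3 ^ (S.m + 1) = r; omega
  · rw [h]; exact hA.2.2.2.1

include S in
/-- An element commuting with an involution is conjugate into the centraliser of the fixed one. -/
theorem conj_into_cent {x v : G} (hv : v * v = 1) (hv1 : v ≠ 1) (hc : x * v = v * x) :
    ∃ k : G, (k * x * k⁻¹) * S.t = S.t * (k * x * k⁻¹) := by
  obtain ⟨g, hg⟩ := S.inv_conj hv hv1
  refine ⟨g⁻¹, ?_⟩
  have e : S.t = g⁻¹ * v * g⁻¹⁻¹ := by rw [← hg]; group
  rw [e]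
  calc g⁻¹ * x * g⁻¹⁻¹ * (g⁻¹ * v * g⁻¹⁻¹) = g⁻¹ * (x * v) * g⁻¹⁻¹ := by group
    _ = g⁻¹ * (v * x) * g⁻¹⁻¹ := by rw [hc]
    _ = _ := by group

include S in
theorem isConj_inv {x : G} (hx2 : 2 < orderOf x) (hx3 : ¬ 3 ∣ orderOf x) : IsConj x x⁻¹ := by
  obtain ⟨p, hp, hp2, hp3, hpx⟩ := exists_big_prime S hx2 hx3
  have low : ∀ v : G, v * v = 1 → v ≠ 1 → x * v = v * x → IsConj x x⁻¹ := by
    intro v hv hv1 hc
    obtain ⟨k, hk⟩ := conj_into_cent S hv hv1 hc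
    obtain ⟨n, hn⟩ := isConj_iff.1 (real_of_cent S hk (by rwa [orderOf_conj]) (by rwa [orderOf_conj]))
    refine isConj_iff.2 ⟨k⁻¹ * n * k, ?_⟩
    calc k⁻¹ * n * k * x * (k⁻¹ * n * k)⁻¹ = k⁻¹ * (n * (k * x * k⁻¹) * n⁻¹) * k := by group
      _ = x⁻¹ := by rw [hn]; group
  rcases cases_big_prime S hp hp2 hp3 hpx with ⟨-, -, v, h1, h2, h3⟩ | ⟨-, -, v, h1, h2, h3⟩ | ⟨A, g, hA, hg, -⟩
  · exact low v h1 h2 h3
  · exact low v h1 h2 h3
  · obtain ⟨n, hn⟩ := exists_conj_frob S hA 3 _ hg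
    have he : (g * x * g⁻¹) ^ q ^ 3 = (g * x * g⁻¹)⁻¹ := by
      refine eq_inv_of_mul_eq_one_left ?_
      rw [← pow_succ, ← orderOf_dvd_iff_pow_eq_one, S.cube_add]
      exact ((A.orderOf_dvd_natCard hg).trans hA.2.1).trans (dvd_mul_left _ _)
    rw [he] at hn
    refine isConj_iff.2 ⟨g⁻¹ * n * g, ?_⟩
    calc g⁻¹ * n * g * x * (g⁻¹ * n * g)⁻¹ = g⁻¹ * (n * (g * x * g⁻¹) * n⁻¹) * g := by group
      _ = x⁻¹ := by rw [hn]; group

include S in
theorem three_order {g : G} (h3 : 3 ∣ orderOf g) : orderOf g = 3 ∨ orderOf g = 6 ∨ orderOf g = 9 := by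
  have hnum := S.nums
  have hr : 3 ^ (S.m + 1) % 3 = 0 := by simp [Nat.pow_mod]
  have hle := r_bound S
  rcases (S.element_orders _).1 ⟨g, rfl⟩ with h | h | h | h | h | h
  · have := Nat.le_of_dvd (by norm_num) h
    interval_cases hd : orderOf g <;> omega
  · have := Nat.le_of_dvd (by norm_num) h
    interval_cases hd : orderOf g <;> omega
  · have := h3.trans h; omega
  · have := h3.trans h; omega
  · have := h3.trans h; omega
  · have := h3.trans h; omega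

include S in
theorem two_transitive :
    MulAction.IsMultiplyPretransitive G (G ⧸ Subgroup.normalizer (S.U : Set G)) 2 := by
  set N := Subgroup.normalizer (S.U : Set G)
  have key : ∀ a b : G ⧸ N, a ≠ b → ∃ g : G, g • (QuotientGroup.mk 1 : G ⧸ N) = a ∧
      g • (QuotientGroup.mk S.n : G ⧸ N) = b := by
    intro a b hab
    obtain ⟨k, rfl⟩ := QuotientGroup.mk_surjective a
    obtain ⟨l, rfl⟩ := QuotientGroup.mk_surjective b
    obtain ⟨u, hu, h⟩ := S.coset_cases (g := k⁻¹ * l) (fun h => hab (QuotientGroup.eq.2 h))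
    refine ⟨k * u, ?_, ?_⟩
    · rw [MulAction.Quotient.smul_mk, QuotientGroup.eq, smul_eq_mul, mul_one]
      rw [show (k * u)⁻¹ * k = u⁻¹ by group]
      exact inv_mem (Subgroup.le_normalizer hu)
    · rw [MulAction.Quotient.smul_mk, QuotientGroup.eq, smul_eq_mul]
      rwa [show (k * u * S.n)⁻¹ * l = (u * S.n)⁻¹ * (k⁻¹ * l) by group]
  rw [MulAction.is_two_pretransitive_iff]
  intro a b c d hab hcd
  obtain ⟨g, h1, h2⟩ := key a b hab
  obtain ⟨g', h1', h2'⟩ := key c d hcd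
  refine ⟨g' * g⁻¹, ?_, ?_⟩
  · rw [← h1, mul_smul, inv_smul_smul, h1']
  · rw [← h2, mul_smul, inv_smul_smul, h2']

include S in
theorem fixedBy_quarter {x : G} {p : ℕ} (hp : p.Prime) (hp2 : p ≠ 2) (hp3 : p ≠ 3)
    (hpq : p ∣ (q + 1) / 4) (hpx : p ∣ orderOf x) :
    Nat.card (MulAction.fixedBy (G ⧸ Subgroup.normalizer (S.U : Set G)) x) = 0 := by
  set N := Subgroup.normalizer (S.U : Set G)
  have hnum := S.nums
  rw [Nat.card_eq_zero]
  refine Or.inl ⟨fun ⟨c, hc⟩ => ?_⟩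
  obtain ⟨k, rfl⟩ := QuotientGroup.mk_surjective c
  rw [MulAction.mem_fixedBy, MulAction.Quotient.smul_mk, QuotientGroup.eq, smul_eq_mul] at hc
  have hc' : k⁻¹ * x * k⁻¹⁻¹ ∈ N := by
    rw [show k⁻¹ * x * k⁻¹⁻¹ = ((x * k)⁻¹ * k)⁻¹ by group]
    exact inv_mem hc
  have hd := N.orderOf_dvd_natCard hc'
  rw [orderOf_conj, S.N_card] at hd
  have hd' := hpx.trans hd
  rcases hp.dvd_mul.1 hd' with h | h
  · rw [S.cardF, ← pow_mul] at h
    exact hp3 ((Nat.prime_dvd_prime_iff_eq hp Nat.prime_three).1 (hp.dvd_of_dvd_pow h))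
  · have h4 : p ∣ q + 1 := hpq.trans (Nat.div_dvd_of_dvd (by omega))
    have h2 : p ∣ 2 := (Nat.dvd_add_right h).1 (by rwa [show q - 1 + 2 = q + 1 by omega])
    exact hp2 ((Nat.prime_dvd_prime_iff_eq hp Nat.prime_two).1 h2)

include S in
theorem fixedBy_U {g : G} (hg : g ∈ S.U) (hg1 : g ≠ 1) :
    Nat.card (MulAction.fixedBy (G ⧸ Subgroup.normalizer (S.U : Set G)) g) = 1 := by
  set N := Subgroup.normalizer (S.U : Set G)
  have h : MulAction.fixedBy (G ⧸ N) g = {QuotientGroup.mk 1} := by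
    ext c
    obtain ⟨k, rfl⟩ := QuotientGroup.mk_surjective c
    rw [MulAction.mem_fixedBy, MulAction.Quotient.smul_mk, QuotientGroup.eq, Set.mem_singleton_iff,
      QuotientGroup.eq, smul_eq_mul, mul_one]
    constructor
    · intro hc
      by_contra hk
      refine hg1 (S.U_regular hg (g := k) (fun h => hk (inv_mem h)) ?_)
      rw [show k⁻¹ * g * k = ((g * k)⁻¹ * k)⁻¹ by group]
      exact inv_mem hc
    · intro hk
      have hk' : k ∈ N := inv_inv k ▸ inv_mem hk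
      exact mul_mem (inv_mem (mul_mem (Subgroup.le_normalizer hg) hk')) hk'
  rw [h]
  simp

end Cfsg.Agent.ReeCover
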